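import Cfsg.Agent.H933.R7.Data

/-!
# `S0 = 2 × PSU(5, 2)` on 165 transpositions: kernel checks (helper933)
-/

set_option autoImplicit false
set_option maxRecDepth 100000

namespace Cfsg.Agent.H933.R7

/-- adjacency -/
def adB (i j : ℕ) : Bool := Nat.beq (Nat.land (Nat.shiftRight (rows.getD i 0) j) 1) 1

/-- table of a generator of the Sylow subgroup -/
def XT : ℕ → ℕ
  | 0 => R1
  | 1 => R4
  | _ => C1

/-- products with a generator -/
def MG : ℕ → List ℕ
  | 0 => M0
  | 1 => M1
  | _ => M2

/-- closure under the generator `k` -/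
def chkM (k : ℕ) : Bool := allN 243 fun j => and (Nat.blt ((MG k).getD j 0) 243)
  (prodB (XT k) (V.getD j 0) (V.getD ((MG k).getD j 0) 0))

/-- not of order three -/
def k0 (T i : ℕ) : Bool := and (Nat.blt i 165) (not (Nat.beq (gt T (gt T (gt T i))) i))

/-- nine fixed points -/
def k1 (T a b c : ℕ) (F : List ℕ) : Bool :=
  and (and (Nat.blt a 165) (and (Nat.blt b 165) (not (adB a b))))
  (and (F.all fun y => and (Nat.blt y 165) (Nat.beq (gt T y) y))
  (and (allN 165 fun y => or (not (Nat.beq (gt T y) y)) (and (adB a y) (adB b y)))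
    (allN 165 fun x => or (or (Nat.beq x a) (or (Nat.beq x b) (Nat.beq x c))) (F.any fun y => not (adB x y)))))

/-- the number of fixed points commuting with `x` -/
def cn (T x : ℕ) : ℕ := cntN 165 fun y => and (Nat.beq (gt T y) y) (adB x y)

/-- twelve fixed points -/
def k2 (T a b c : ℕ) : Bool :=
  and (and (and (Nat.blt a 165) (Nat.beq (gt T a) a)) (and (and (Nat.blt b 165) (Nat.beq (gt T b) b)) (not (adB a b))))
  (and (and (Nat.beq (cn T a) 10) (Nat.beq (cn T b) 10))
    (allN 165 fun x => or (or (Nat.beq x a) (or (Nat.beq x b) (Nat.beq x c)))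
      (or (not (Nat.beq (gt T x) x)) (not (Nat.beq (cn T x) 10)))))

/-- six fixed points -/
def k3 (T a b b' y y' y'' : ℕ) : Bool :=
  and (and (and (Nat.blt a 165) (Nat.beq (gt T a) a)) (and (Nat.blt b 165) (Nat.beq (gt T b) b)))
  (and (and (and (Nat.blt y 165) (Nat.beq (gt T y) y)) (and (adB a y) (adB b y)))
  (and (and (not (adB a b)) (and (not (adB a b')) (and (adB a y') (adB a y''))))
  (and (and (not (Nat.beq a y)) (and (not (Nat.beq b y)) (adB a a)))
    (allN 165 fun x => or (not (Nat.beq (gt T x) x)) (or (or (Nat.beq x a) (or (Nat.beq x b) (Nat.beq x b')))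
      (or (Nat.beq x y) (or (Nat.beq x y') (Nat.beq x y''))))))))

/-- conjugate to a power of the reflection -/
def k4 (T e : ℕ) (w : List ℕ) : Bool :=
  or (and (Nat.beq e 1) (allN 165 fun i => Nat.beq (gt T (ev GT w i)) (ev GT w (gt R1 i))))
    (and (Nat.beq e 2) (allN 165 fun i => Nat.beq (gt T (ev GT w i)) (ev GT w (gt R1 (gt R1 i)))))

/-- the certificate of an element -/
def kc (T : ℕ) : List ℕ → Bool
  | [] => false
  | k :: l => or (and (Nat.beq k 0) (k0 T (l.getD 0 165)))
      (or (and (Nat.beq k 1) (k1 T (l.getD 0 165) (l.getD 1 165) (l.getD 2 165) (l.drop 3)))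
      (or (and (Nat.beq k 2) (k2 T (l.getD 0 165) (l.getD 1 165) (l.getD 2 165)))
      (or (and (Nat.beq k 3) (k3 T (l.getD 0 165) (l.getD 1 165) (l.getD 2 165) (l.getD 3 165) (l.getD 4 165)
        (l.getD 5 165)))
      (and (Nat.beq k 4) (k4 T (l.getD 0 165) (l.drop 1))))))

/-- the certificates, `a ≤ j < a + m` -/
def chkK (a m : ℕ) : Bool := allN m fun j => or (Nat.beq (Nat.add a j) 0)
  (kc (V.getD (Nat.add a j) 0) (CT.getD (Nat.add a j) []))

/-! ### Words -/

theorem word_R1 : wordB GT R1w R1 = true := by decide +kernel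

theorem word_R4 : wordB GT R4w R4 = true := by decide +kernel

theorem word_C1 : wordB GT Cw C1 = true := by decide +kernel

theorem word_F5 : wordB GT fw F5 = true := by decide +kernel

theorem chk_V0 : (allN 165 fun i => Nat.beq (gt (V.getD 0 0) i) i) = true := by decide +kernel

theorem chk_M0 : chkM 0 = true := by decide +kernel

theorem chk_M1 : chkM 1 = true := by decide +kernel

theorem chk_M2 : chkM 2 = true := by decide +kernel

theorem chk_tree : (allN 243 fun j => or (Nat.beq j 0) (and (Nat.blt (TP.getD j 0) j) (and (Nat.blt (TG.getD j 0) 3)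
    (Nat.beq ((MG (TG.getD j 0)).getD (TP.getD j 0) 0) j)))) = true := by decide +kernel

theorem chk_dist : (allN 243 fun i => allN i fun j => not (and (Nat.beq (gt (V.getD i 0) 2) (gt (V.getD j 0) 2))
    (Nat.beq (gt (V.getD i 0) 9) (gt (V.getD j 0) 9)))) = true := by decide +kernel

theorem chk_K0 : chkK 0 60 = true := by decide +kernel
theorem chk_K1 : chkK 60 60 = true := by decide +kernel
theorem chk_K2 : chkK 120 60 = true := by decide +kernel
theorem chk_K3 : chkK 180 63 = true := by decide +kernel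

/-! ### Orbits -/

theorem chk_PT : (allN 165 fun i => Nat.beq (ev GT (PT.getD i []) 0) i) = true := by decide +kernel

theorem chk_U : (allN 165 fun x => or (adB 0 x) (and (Nat.beq (ev GT (UW.getD x []) 0) 0)
    (Nat.beq (ev GT (UW.getD x []) b0) x))) = true := by decide +kernel

theorem chk_Uc : Nat.beq (cntN 165 fun x => not (adB 0 x)) 128 = true := by decide +kernel

theorem chk_Z : (allN 165 fun x => or (not (and (adB 0 x) (adB b0 x))) (and (and (Nat.beq (ev GT (ZW.getD x []) 0) 0)
    (Nat.beq (ev GT (ZW.getD x []) b0) b0)) (Nat.beq (ev GT (ZW.getD x []) y0) x))) = true := by decide +kernel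

theorem chk_Zc : Nat.beq (cntN 165 fun x => and (adB 0 x) (adB b0 x)) 9 = true := by decide +kernel

theorem chk_by : and (and (Nat.blt b0 165) (not (adB 0 b0))) (and (Nat.blt y0 165) (and (adB 0 y0) (adB b0 y0))) = true := by
  decide +kernel

/-- image of the point `b` under the conjugate of the reflection -/
def rf (w : List ℕ) (b : ℕ) : ℕ := ev GT w (gt R1 (ev GT w.reverse b))

/-- code of a conjugate of the reflection -/
def cd (w : List ℕ) : ℕ := Nat.add (rf w 0) (Nat.add (Nat.mul 256 (rf w 37)) (Nat.add (Nat.mul 65536 (rf w 42))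
  (Nat.mul 16777216 (rf w 1))))

theorem chk_R : (allN 175 fun k => Nat.blt (cd (RF.getD k [])) (cd (RF.getD (Nat.succ k) []))) = true := by decide +kernel

theorem chk_inv : (allN 5 fun k => allN 165 fun i => Nat.beq (gt (GT k) (gt (GT k) i)) i) = true := by decide +kernel

theorem chk_Rw : (allN 176 fun k => (RF.getD k []).all fun x => Nat.blt x 5) = true := by decide +kernel

theorem chk_F : and (allN 165 fun i => Nat.beq (gt F5 (gt R1 i)) (gt R1 (gt F5 i)))
    (and (allN 5 fun i => and (Nat.blt (tp.getD i 0) 165) (and (Nat.beq (gt R1 (tp.getD i 0)) (tp.getD i 0))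
      (Nat.beq (gt F5 (tp.getD i 0)) (tp.getD ((i + 1) % 5) 0))))
    (allN 5 fun i => allN 5 fun j => and (adB (tp.getD i 0) (tp.getD j 0))
      (or (Nat.beq i j) (not (Nat.beq (tp.getD i 0) (tp.getD j 0)))))) = true := by decide +kernel

end Cfsg.Agent.H933.R7
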