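import Cfsg.Agent.H933.R7.Chk

/-!
# A permutation group on 165 points: the elements of order three (helper933)

* `Env Γ g`    : `Γ` contains the generators with the tables `GT k`, has order 13685760 and preserves the graph.
* `Concl Γ σ`  : the alternative for an element of order three.
* `main`       : it holds for all elements of order three of `Γ`.
-/

set_option autoImplicit false

namespace Cfsg.Agent.H933.R7

open MulAction Subgroup

/-- the situation -/
structure Env (Γ : Subgroup Pm) (g : ℕ → Pm) : Prop where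
  tab : ∀ k, Tab (g k) (GT k)
  mem : ∀ k, g k ∈ Γ
  card : Nat.card Γ = 13685760
  adj : ∀ x ∈ Γ, ∀ i j : Fin 165, adB ((x i : Fin 165) : ℕ) ((x j : Fin 165) : ℕ) = adB i j

/-- the stabilizer of a point -/
abbrev St (a : Fin 165) : Subgroup Pm := stabilizer Pm a

/-- the centralizer -/
abbrev Ce (Γ : Subgroup Pm) (σ : Pm) : Subgroup Pm := Γ ⊓ centralizer {σ}

/-- the conclusion -/
def Concl (Γ : Subgroup Pm) (σ : Pm) : Prop :=
  Nat.card ↥(Ce Γ σ) ≤ 3888 ∨ (Nat.card ↥(Ce Γ σ) ≤ 77760 ∧ ∃ f ∈ Γ, Commute f σ ∧ ∃ t : Fin 5 → Fin 165,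
    Function.Injective t ∧ (∀ i, σ (t i) = t i) ∧ (∀ i j, adB (t i) (t j) = true) ∧ ∀ i, f (t i) = t (i + 1))

theorem mem_St {a : Fin 165} {x : Pm} : x ∈ St a ↔ x a = a := Iff.rfl

theorem mem_Ce {Γ : Subgroup Pm} {σ x : Pm} : x ∈ Ce Γ σ ↔ x ∈ Γ ∧ σ * x = x * σ := by
  rw [Subgroup.mem_inf, mem_centralizer_singleton_iff]
  constructor
  · rintro ⟨h1, h2⟩; exact ⟨h1, h2.symm⟩
  · rintro ⟨h1, h2⟩; exact ⟨h1, h2.symm⟩

theorem inv_app (x : Pm) (i : Fin 165) : x⁻¹ (x i) = i := x.symm_apply_apply i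

theorem app_inv (x : Pm) (i : Fin 165) : x (x⁻¹ i) = i := x.apply_symm_apply i

theorem ad_self (i : Fin 165) : adB i i = true := by
  have h : (allN 165 fun i => adB i i) = true := by decide +kernel
  exact allN_spec h i i.2

theorem card_filter_le (L : Finset ℕ) : (Finset.univ.filter fun x : Fin 165 => (x : ℕ) ∈ L).card ≤ L.card := by
  refine Finset.card_le_card_of_injOn (fun x => (x : ℕ)) ?_ ?_
  · intro x hx
    exact (Finset.mem_filter.1 hx).2
  · intro x _ y _ h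
    exact Fin.ext h

variable {Γ : Subgroup Pm} {g : ℕ → Pm}

/-- three possible images of two points -/
theorem bound_two {σ : Pm} {a b : Fin 165} (hab : adB a b = false) (h2 : Nat.card ↥(Γ ⊓ St a ⊓ St b) ≤ 648)
    (L : Finset ℕ) (hL : L.card ≤ 3) (ha : ∀ x ∈ Ce Γ σ, ((x a : Fin 165) : ℕ) ∈ L)
    (hb : ∀ x ∈ Ce Γ σ, ((x b : Fin 165) : ℕ) ∈ L) : Nat.card ↥(Ce Γ σ) ≤ 3888 := by
  have hne : a ≠ b := by
    rintro rfl
    rw [ad_self] at hab
    exact absurd hab (by simp)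
  have h3 := card_le_mul (Ce Γ σ) a (Finset.univ.filter fun x : Fin 165 => (x : ℕ) ∈ L)
    (fun x hx => Finset.mem_filter.2 ⟨Finset.mem_univ _, ha x hx⟩)
  have h4 := card_le_mul (Ce Γ σ ⊓ St a) b (Finset.univ.filter fun x : Fin 165 => (x : ℕ) ∈ L.erase a) (by
    rintro x ⟨hx, hxa⟩
    refine Finset.mem_filter.2 ⟨Finset.mem_univ _, Finset.mem_erase.2 ⟨?_, hb x hx⟩⟩
    intro h
    have h5 : x b = a := Fin.ext h
    have h6 : x a = a := hxa
    exact hne (x.injective (h6.trans h5.symm)))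
  have h5 := card_filter_le L
  have h6 := card_filter_le (L.erase a)
  have haL : (a : ℕ) ∈ L := ha 1 (one_mem _)
  have h7 : (L.erase a).card ≤ 2 := by
    rw [Finset.card_erase_of_mem haL]
    omega
  have h8 : Nat.card ↥(Ce Γ σ ⊓ St a ⊓ St b) ≤ 648 := by
    refine le_trans (Subgroup.card_le_of_le ?_) h2
    exact inf_le_inf (inf_le_inf inf_le_left le_rfl) le_rfl
  calc Nat.card ↥(Ce Γ σ) ≤ _ := h3
    _ ≤ 3 * Nat.card ↥(Ce Γ σ ⊓ St a) := Nat.mul_le_mul (h5.trans hL) le_rfl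
    _ ≤ 3 * (2 * Nat.card ↥(Ce Γ σ ⊓ St a ⊓ St b)) := Nat.mul_le_mul le_rfl (h4.trans
      (Nat.mul_le_mul (h6.trans h7) le_rfl))
    _ ≤ 3888 := by omega

/-- six fixed points -/
theorem bound_six {σ : Pm} {a b y : Fin 165} {b' y' y'' : ℕ}
    (h2 : Nat.card ↥(Γ ⊓ St a ⊓ St b ⊓ St y) ≤ 72)
    (ha : ∀ x ∈ Ce Γ σ, ((x a : Fin 165) : ℕ) ∈ ({(a : ℕ), (b : ℕ), b', (y : ℕ), y', y''} : Finset ℕ))
    (hb : ∀ x ∈ Ce Γ σ, x a = a → ((x b : Fin 165) : ℕ) ∈ ({(b : ℕ), b'} : Finset ℕ))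
    (hy : ∀ x ∈ Ce Γ σ, x a = a → x b = b → ((x y : Fin 165) : ℕ) ∈ ({(y : ℕ), y', y''} : Finset ℕ)) :
    Nat.card ↥(Ce Γ σ) ≤ 3888 := by
  have h3 := card_le_mul (Ce Γ σ) a (Finset.univ.filter fun x : Fin 165 => (x : ℕ) ∈
    ({(a : ℕ), (b : ℕ), b', (y : ℕ), y', y''} : Finset ℕ)) (fun x hx => Finset.mem_filter.2 ⟨Finset.mem_univ _, ha x hx⟩)
  have h4 := card_le_mul (Ce Γ σ ⊓ St a) b (Finset.univ.filter fun x : Fin 165 => (x : ℕ) ∈ ({(b : ℕ), b'} : Finset ℕ))
    (fun x hx => Finset.mem_filter.2 ⟨Finset.mem_univ _, hb x hx.1 hx.2⟩)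
  have h5 := card_le_mul (Ce Γ σ ⊓ St a ⊓ St b) y
    (Finset.univ.filter fun x : Fin 165 => (x : ℕ) ∈ ({(y : ℕ), y', y''} : Finset ℕ))
    (fun x hx => Finset.mem_filter.2 ⟨Finset.mem_univ _, hy x hx.1.1 hx.1.2 hx.2⟩)
  have k1 := (card_filter_le ({(a : ℕ), (b : ℕ), b', (y : ℕ), y', y''} : Finset ℕ)).trans Finset.card_le_six
  have k2 := (card_filter_le ({(b : ℕ), b'} : Finset ℕ)).trans Finset.card_le_two
  have k3 := (card_filter_le ({(y : ℕ), y', y''} : Finset ℕ)).trans Finset.card_le_three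
  have h8 : Nat.card ↥(Ce Γ σ ⊓ St a ⊓ St b ⊓ St y) ≤ 72 := by
    refine le_trans (Subgroup.card_le_of_le ?_) h2
    exact inf_le_inf (inf_le_inf (inf_le_inf inf_le_left le_rfl) le_rfl) le_rfl
  calc Nat.card ↥(Ce Γ σ) ≤ _ := h3
    _ ≤ 6 * Nat.card ↥(Ce Γ σ ⊓ St a) := Nat.mul_le_mul k1 le_rfl
    _ ≤ 6 * (2 * Nat.card ↥(Ce Γ σ ⊓ St a ⊓ St b)) := Nat.mul_le_mul le_rfl (h4.trans
      (Nat.mul_le_mul k2 le_rfl))
    _ ≤ 6 * (2 * (3 * Nat.card ↥(Ce Γ σ ⊓ St a ⊓ St b ⊓ St y))) := Nat.mul_le_mul le_rfl (Nat.mul_le_mul le_rfl (h5.trans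
      (Nat.mul_le_mul k3 le_rfl)))
    _ ≤ 3888 := by omega

/-- conjugate elements -/
theorem Concl.conj {σ x : Pm} (hΓ : ∀ x ∈ Γ, ∀ i j : Fin 165, adB ((x i : Fin 165) : ℕ) ((x j : Fin 165) : ℕ) = adB i j)
    (hx : x ∈ Γ) (h : Concl Γ σ) : Concl Γ (x * σ * x⁻¹) := by
  have key : Nat.card ↥(Ce Γ (x * σ * x⁻¹)) ≤ Nat.card ↥(Ce Γ σ) := by
    refine Nat.card_le_card_of_injective (fun y => ⟨x⁻¹ * (y : Pm) * x, ?_⟩) ?_
    · have h1 := mem_Ce.1 y.2
      refine mem_Ce.2 ⟨Γ.mul_mem (Γ.mul_mem (Γ.inv_mem hx) h1.1) hx, ?_⟩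
      have h2 : x⁻¹ * (x * σ * x⁻¹ * (y : Pm)) * x = x⁻¹ * ((y : Pm) * (x * σ * x⁻¹)) * x := by rw [h1.2]
      have h3 : x⁻¹ * (x * σ * x⁻¹ * (y : Pm)) * x = σ * (x⁻¹ * (y : Pm) * x) := by group
      have h4 : x⁻¹ * ((y : Pm) * (x * σ * x⁻¹)) * x = x⁻¹ * (y : Pm) * x * σ := by group
      rw [← h3, h2, h4]
    · intro y z hyz
      have h1 : x⁻¹ * (y : Pm) * x = x⁻¹ * (z : Pm) * x := congrArg Subtype.val hyz
      exact Subtype.ext (mul_left_cancel (mul_right_cancel h1))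
  rcases h with h | ⟨h, f, hf, hfc, t, ht, hs, ha, hft⟩
  · exact Or.inl (key.trans h)
  · refine Or.inr ⟨key.trans h, x * f * x⁻¹, Γ.mul_mem (Γ.mul_mem hx hf) (Γ.inv_mem hx), ?_, fun i => x (t i), ?_, ?_, ?_, ?_⟩
    · show x * f * x⁻¹ * (x * σ * x⁻¹) = x * σ * x⁻¹ * (x * f * x⁻¹)
      have h1 : x * f * x⁻¹ * (x * σ * x⁻¹) = x * (f * σ) * x⁻¹ := by group
      have h2 : x * σ * x⁻¹ * (x * f * x⁻¹) = x * (σ * f) * x⁻¹ := by group
      rw [h1, h2, hfc.eq]
    · exact x.injective.comp ht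
    · intro i
      simp only [Equiv.Perm.mul_apply, inv_app, hs]
    · intro i j
      rw [hΓ x hx]
      exact ha i j
    · intro i
      simp only [Equiv.Perm.mul_apply, inv_app, hft]

section env

variable (E : Env Γ g)

include E

theorem val_wd (w : List ℕ) (i : Fin 165) : ((wd g w i : Fin 165) : ℕ) = ev GT w i := wd_apply E.tab w i

theorem wd_mem' (w : List ℕ) : wd g w ∈ Γ := wd_mem E.mem w

/-! ### Stabilizers -/

/-- the first point -/
def p0 : Fin 165 := ⟨0, by norm_num⟩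

omit E in
theorem b0_lt : b0 < 165 := by
  have h := chk_by
  simp only [Bool.and_eq_true] at h
  exact Nat.le_of_ble_eq_true h.1.1

omit E in
theorem y0_lt : y0 < 165 := by
  have h := chk_by
  simp only [Bool.and_eq_true] at h
  exact Nat.le_of_ble_eq_true h.2.1

/-- the second point -/
def pb : Fin 165 := ⟨b0, b0_lt⟩

/-- the third point -/
def py : Fin 165 := ⟨y0, y0_lt⟩

theorem card_St0 : 165 * Nat.card ↥(Γ ⊓ St p0) ≤ Nat.card Γ := by
  have h := card_mul_le (H := Γ) (K := Γ ⊓ St p0) (fun i : Fin 165 => wd g (PT.getD i [])) (fun i => wd_mem' E _)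
    inf_le_left ?_
  · rwa [Fintype.card_fin] at h
  · intro i j h1
    have h2 : ((wd g (PT.getD i []))⁻¹ * wd g (PT.getD j [])) p0 = p0 := h1.2
    rw [Equiv.Perm.mul_apply, Equiv.Perm.inv_eq_iff_eq] at h2
    have h3 := congrArg Fin.val h2
    rw [val_wd E, val_wd E] at h3
    have k1 := Nat.eq_of_beq_eq_true (allN_spec chk_PT i i.2)
    have k2 := Nat.eq_of_beq_eq_true (allN_spec chk_PT j j.2)
    have h4 : (j : ℕ) = (i : ℕ) := k2.symm.trans (h3.trans k1)
    exact Fin.ext h4.symm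

theorem exists_first (a : Fin 165) : ∃ x ∈ Γ, x p0 = a :=
  ⟨wd g (PT.getD a []), wd_mem' E _, Fin.ext ((val_wd E _ _).trans (Nat.eq_of_beq_eq_true (allN_spec chk_PT a a.2)))⟩

theorem exists_second {x : Fin 165} (hx : adB 0 x = false) : wd g (UW.getD x []) p0 = p0 ∧
    wd g (UW.getD x []) pb = x := by
  have h := allN_spec chk_U x x.2
  rw [hx, Bool.false_or, Bool.and_eq_true] at h
  exact ⟨Fin.ext ((val_wd E _ _).trans (Nat.eq_of_beq_eq_true h.1)),
    Fin.ext ((val_wd E _ _).trans (Nat.eq_of_beq_eq_true h.2))⟩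

theorem exists_third {x : Fin 165} (hx : adB 0 x = true) (hx2 : adB b0 x = true) : wd g (ZW.getD x []) p0 = p0 ∧
    wd g (ZW.getD x []) pb = pb ∧ wd g (ZW.getD x []) py = x := by
  have h := allN_spec chk_Z x x.2
  rw [hx, hx2, Bool.and_true, Bool.not_true, Bool.false_or, Bool.and_eq_true, Bool.and_eq_true] at h
  exact ⟨Fin.ext ((val_wd E _ _).trans (Nat.eq_of_beq_eq_true h.1.1)),
    Fin.ext ((val_wd E _ _).trans (Nat.eq_of_beq_eq_true h.1.2)),
    Fin.ext ((val_wd E _ _).trans (Nat.eq_of_beq_eq_true h.2))⟩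

theorem card_St1 : 128 * Nat.card ↥(Γ ⊓ St p0 ⊓ St pb) ≤ Nat.card ↥(Γ ⊓ St p0) := by
  have h := card_mul_le (H := Γ ⊓ St p0) (K := Γ ⊓ St p0 ⊓ St pb)
    (fun i : {x : Fin 165 // (fun n : ℕ => not (adB 0 n)) x = true} => wd g (UW.getD i.1 [])) (fun i => ⟨wd_mem' E _, ?_⟩)
    inf_le_left ?_
  · have h2 : cntN 165 (fun n : ℕ => not (adB 0 n)) = 128 := Nat.eq_of_beq_eq_true chk_Uc
    have h3 : Fintype.card {x : Fin 165 // (fun n : ℕ => not (adB 0 n)) x = true} = 128 := by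
      rw [Fintype.card_subtype]
      exact (cntN_eq 165 fun n : ℕ => not (adB 0 n)).symm.trans h2
    rwa [h3] at h
  · have h2 : not (adB 0 i.1) = true := i.2
    exact (exists_second E (by rwa [Bool.not_eq_true'] at h2)).1
  · intro i j h1
    have h2 : ((wd g (UW.getD i.1 []))⁻¹ * wd g (UW.getD j.1 [])) pb = pb := h1.2
    rw [Equiv.Perm.mul_apply, Equiv.Perm.inv_eq_iff_eq] at h2
    have hi : not (adB 0 i.1) = true := i.2
    have hj : not (adB 0 j.1) = true := j.2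
    rw [Bool.not_eq_true'] at hi hj
    rw [(exists_second E hi).2, (exists_second E hj).2] at h2
    exact Subtype.ext h2.symm

theorem card_St2 : 9 * Nat.card ↥(Γ ⊓ St p0 ⊓ St pb ⊓ St py) ≤ Nat.card ↥(Γ ⊓ St p0 ⊓ St pb) := by
  classical
  have h := card_mul_le (H := Γ ⊓ St p0 ⊓ St pb) (K := Γ ⊓ St p0 ⊓ St pb ⊓ St py)
    (fun i : {x : Fin 165 // (fun n : ℕ => and (adB 0 n) (adB b0 n)) x = true} => wd g (ZW.getD i.1 []))
    (fun i => ?_) inf_le_left ?_
  · have h2 : cntN 165 (fun n : ℕ => and (adB 0 n) (adB b0 n)) = 9 := Nat.eq_of_beq_eq_true chk_Zc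
    have h3 : Fintype.card {x : Fin 165 // (fun n : ℕ => and (adB 0 n) (adB b0 n)) x = true} = 9 := by
      rw [Fintype.card_subtype]
      exact (cntN_eq 165 fun n : ℕ => and (adB 0 n) (adB b0 n)).symm.trans h2
    rwa [h3] at h
  · have h2 : and (adB 0 i.1) (adB b0 i.1) = true := i.2
    rw [Bool.and_eq_true] at h2
    have h3 := exists_third E h2.1 h2.2
    exact ⟨⟨wd_mem' E _, h3.1⟩, h3.2.1⟩
  · intro i j h1
    have h2 : ((wd g (ZW.getD i.1 []))⁻¹ * wd g (ZW.getD j.1 [])) py = py := h1.2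
    rw [Equiv.Perm.mul_apply, Equiv.Perm.inv_eq_iff_eq] at h2
    have hi : and (adB 0 i.1) (adB b0 i.1) = true := i.2
    have hj : and (adB 0 j.1) (adB b0 j.1) = true := j.2
    rw [Bool.and_eq_true] at hi hj
    rw [(exists_third E hi.1 hi.2).2.2, (exists_third E hj.1 hj.2).2.2] at h2
    exact Subtype.ext h2.symm

theorem card_two : Nat.card ↥(Γ ⊓ St p0 ⊓ St pb) ≤ 648 := by
  have h1 := card_St0 E
  have h2 := card_St1 E
  have h3 := E.card
  omega

theorem card_three : Nat.card ↥(Γ ⊓ St p0 ⊓ St pb ⊓ St py) ≤ 72 := by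
  have h1 := card_two E
  have h2 := card_St2 E
  omega

omit E in
theorem conj_mem_St {x y : Pm} {a : Fin 165} (h : y ∈ St (x a)) : x⁻¹ * y * x ∈ St a := by
  rw [mem_St] at h ⊢
  rw [Equiv.Perm.mul_apply, Equiv.Perm.mul_apply, h, inv_app]

theorem exists_pair {a b : Fin 165} (hab : adB a b = false) : ∃ x ∈ Γ, x p0 = a ∧ x pb = b := by
  obtain ⟨x, hx, rfl⟩ := exists_first E a
  have h1 : adB 0 ((x⁻¹ b : Fin 165) : ℕ) = false := by
    have h2 := E.adj x hx p0 (x⁻¹ b)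
    rw [app_inv, hab] at h2
    exact h2.symm
  have h2 := exists_second E h1
  refine ⟨x * wd g (UW.getD ((x⁻¹ b : Fin 165) : ℕ) []), Γ.mul_mem hx (wd_mem' E _), ?_, ?_⟩
  · rw [Equiv.Perm.mul_apply, h2.1]
  · rw [Equiv.Perm.mul_apply, h2.2, app_inv]

theorem exists_triple {a b y : Fin 165} (hab : adB a b = false) (hay : adB a y = true) (hby : adB b y = true) :
    ∃ x ∈ Γ, x p0 = a ∧ x pb = b ∧ x py = y := by
  obtain ⟨x, hx, rfl, rfl⟩ := exists_pair E hab
  have h1 : adB 0 ((x⁻¹ y : Fin 165) : ℕ) = true := by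
    have h2 := E.adj x hx p0 (x⁻¹ y)
    rw [app_inv, hay] at h2
    exact h2.symm
  have h1' : adB b0 ((x⁻¹ y : Fin 165) : ℕ) = true := by
    have h2 := E.adj x hx pb (x⁻¹ y)
    rw [app_inv, hby] at h2
    exact h2.symm
  have h2 := exists_third E h1 h1'
  refine ⟨x * wd g (ZW.getD ((x⁻¹ y : Fin 165) : ℕ) []), Γ.mul_mem hx (wd_mem' E _), ?_, ?_, ?_⟩
  · rw [Equiv.Perm.mul_apply, h2.1]
  · rw [Equiv.Perm.mul_apply, h2.2.1]
  · rw [Equiv.Perm.mul_apply, h2.2.2, app_inv]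

theorem stab_two {a b : Fin 165} (hab : adB a b = false) : Nat.card ↥(Γ ⊓ St a ⊓ St b) ≤ 648 := by
  obtain ⟨x, hx, rfl, rfl⟩ := exists_pair E hab
  refine le_trans ?_ (card_two E)
  refine Nat.card_le_card_of_injective (fun y => ⟨x⁻¹ * (y : Pm) * x, ⟨⟨?_, ?_⟩, ?_⟩⟩) ?_
  · exact Γ.mul_mem (Γ.mul_mem (Γ.inv_mem hx) y.2.1.1) hx
  · exact conj_mem_St y.2.1.2
  · exact conj_mem_St y.2.2
  · intro y z hyz
    have h1 : x⁻¹ * (y : Pm) * x = x⁻¹ * (z : Pm) * x := congrArg Subtype.val hyz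
    exact Subtype.ext (mul_left_cancel (mul_right_cancel h1))

theorem stab_three {a b y : Fin 165} (hab : adB a b = false) (hay : adB a y = true) (hby : adB b y = true) :
    Nat.card ↥(Γ ⊓ St a ⊓ St b ⊓ St y) ≤ 72 := by
  obtain ⟨x, hx, rfl, rfl, rfl⟩ := exists_triple E hab hay hby
  refine le_trans ?_ (card_three E)
  refine Nat.card_le_card_of_injective (fun y => ⟨x⁻¹ * (y : Pm) * x, ⟨⟨⟨?_, ?_⟩, ?_⟩, ?_⟩⟩) ?_
  · exact Γ.mul_mem (Γ.mul_mem (Γ.inv_mem hx) y.2.1.1.1) hx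
  · exact conj_mem_St y.2.1.1.2
  · exact conj_mem_St y.2.1.2
  · exact conj_mem_St y.2.2
  · intro y z hyz
    have h1 : x⁻¹ * (y : Pm) * x = x⁻¹ * (z : Pm) * x := congrArg Subtype.val hyz
    exact Subtype.ext (mul_left_cancel (mul_right_cancel h1))

/-! ### The certificates -/

omit E in
theorem comm_fix {σ x : Pm} (hx : x ∈ Ce Γ σ) {y : Fin 165} (hy : σ y = y) : σ (x y) = x y := by
  have h := (mem_Ce.1 hx).2
  have h2 : (σ * x) y = (x * σ) y := by rw [h]
  rwa [Equiv.Perm.mul_apply, Equiv.Perm.mul_apply, hy] at h2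

omit E in
theorem Tab.fix {σ : Pm} {T : ℕ} (hT : Tab σ T) (y : Fin 165) : Nat.beq (gt T y) y = true ↔ σ y = y := by
  rw [← hT y]
  constructor
  · intro h; exact Fin.ext (Nat.eq_of_beq_eq_true h)
  · intro h; rw [h]; exact Nat.beq_refl _

theorem k1_spec {σ : Pm} {T a b c : ℕ} {F : List ℕ} (hT : Tab σ T) (h : k1 T a b c F = true) : Concl Γ σ := by
  left
  unfold k1 at h
  simp only [Bool.and_eq_true, Bool.not_eq_true'] at h
  obtain ⟨⟨ha, hb, hab⟩, hF, h1, h2⟩ := h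
  have ha' : a < 165 := Nat.le_of_ble_eq_true ha
  have hb' : b < 165 := Nat.le_of_ble_eq_true hb
  have hadj : ∀ y : Fin 165, σ y = y → adB a y = true ∧ adB b y = true := by
    intro y hy
    have h3 := allN_spec h1 y y.2
    simp only [Bool.or_eq_true, Bool.not_eq_true', Bool.and_eq_true] at h3
    rcases h3 with h3 | h3
    · rw [(hT.fix y).2 hy] at h3
      exact absurd h3 (by simp)
    · exact h3
  have key : ∀ x : Fin 165, (∀ y : Fin 165, σ y = y → adB x y = true) → (x : ℕ) ∈ ({a, b, c} : Finset ℕ) := by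
    intro x hx
    have h3 := allN_spec h2 x x.2
    simp only [Bool.or_eq_true] at h3
    rcases h3 with (h3 | h3 | h3) | h3
    · simp [Nat.eq_of_beq_eq_true h3]
    · simp [Nat.eq_of_beq_eq_true h3]
    · simp [Nat.eq_of_beq_eq_true h3]
    · rw [List.any_eq_true] at h3
      obtain ⟨y, hy, hxy⟩ := h3
      rw [List.all_eq_true] at hF
      have h4 := hF y hy
      rw [Bool.and_eq_true] at h4
      have hy1 : y < 165 := Nat.le_of_ble_eq_true h4.1
      have h5 : σ ⟨y, hy1⟩ = ⟨y, hy1⟩ := (hT.fix ⟨y, hy1⟩).1 h4.2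
      have h6 := hx _ h5
      have h7 : adB x y = true := h6
      rw [h7] at hxy
      exact absurd hxy (by simp)
  have move : ∀ x ∈ Ce Γ σ, ∀ z : Fin 165, (∀ y : Fin 165, σ y = y → adB z y = true) →
      ∀ y : Fin 165, σ y = y → adB ((x z : Fin 165) : ℕ) y = true := by
    intro x hx z hz y hy
    have h3 := E.adj x (mem_Ce.1 hx).1 z (x⁻¹ y)
    rw [app_inv] at h3
    rw [h3]
    exact hz _ (comm_fix (inv_mem hx) hy)
  refine bound_two (a := ⟨a, ha'⟩) (b := ⟨b, hb'⟩) hab (stab_two E hab) {a, b, c} Finset.card_le_three ?_ ?_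
  · intro x hx
    exact key _ (move x hx ⟨a, ha'⟩ fun y hy => (hadj y hy).1)
  · intro x hx
    exact key _ (move x hx ⟨b, hb'⟩ fun y hy => (hadj y hy).2)

theorem cn_eq {σ x : Pm} {T : ℕ} (hT : Tab σ T) (hx : x ∈ Ce Γ σ) (z : Fin 165) :
    cn T ((x z : Fin 165) : ℕ) = cn T z := by
  unfold cn
  rw [cntN_eq, cntN_eq]
  symm
  refine Finset.card_bij (fun y _ => x y) ?_ ?_ ?_
  · intro y hy
    have h1 := (Finset.mem_filter.1 hy).2
    rw [Bool.and_eq_true, hT.fix] at h1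
    refine Finset.mem_filter.2 ⟨Finset.mem_univ _, ?_⟩
    rw [Bool.and_eq_true, hT.fix]
    exact ⟨comm_fix hx h1.1, (E.adj x (mem_Ce.1 hx).1 z y).trans h1.2⟩
  · intro y _ y' _ h
    exact x.injective h
  · intro y hy
    have h1 := (Finset.mem_filter.1 hy).2
    rw [Bool.and_eq_true, hT.fix] at h1
    refine ⟨x⁻¹ y, Finset.mem_filter.2 ⟨Finset.mem_univ _, ?_⟩, app_inv _ _⟩
    rw [Bool.and_eq_true, hT.fix]
    refine ⟨comm_fix (inv_mem hx) h1.1, ?_⟩
    have h3 := E.adj x (mem_Ce.1 hx).1 z (x⁻¹ y)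
    rw [app_inv] at h3
    rw [← h3]
    exact h1.2

theorem k2_spec {σ : Pm} {T a b c : ℕ} (hT : Tab σ T) (h : k2 T a b c = true) : Concl Γ σ := by
  left
  unfold k2 at h
  simp only [Bool.and_eq_true, Bool.not_eq_true'] at h
  obtain ⟨⟨⟨ha, haf⟩, ⟨hb, hbf⟩, hab⟩, ⟨hca, hcb⟩, h1⟩ := h
  have ha' : a < 165 := Nat.le_of_ble_eq_true ha
  have hb' : b < 165 := Nat.le_of_ble_eq_true hb
  have key : ∀ x : Fin 165, σ x = x → cn T x = 10 → (x : ℕ) ∈ ({a, b, c} : Finset ℕ) := by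
    intro x hx hc
    have h3 := allN_spec h1 x x.2
    simp only [Bool.or_eq_true, Bool.not_eq_true'] at h3
    rcases h3 with (h3 | h3 | h3) | h3 | h3
    · simp [Nat.eq_of_beq_eq_true h3]
    · simp [Nat.eq_of_beq_eq_true h3]
    · simp [Nat.eq_of_beq_eq_true h3]
    · rw [(hT.fix x).2 hx] at h3
      exact absurd h3 (by simp)
    · rw [hc] at h3
      exact absurd h3 (by decide)
  have haσ : σ ⟨a, ha'⟩ = ⟨a, ha'⟩ := (hT.fix ⟨a, ha'⟩).1 haf
  have hbσ : σ ⟨b, hb'⟩ = ⟨b, hb'⟩ := (hT.fix ⟨b, hb'⟩).1 hbf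
  refine bound_two (a := ⟨a, ha'⟩) (b := ⟨b, hb'⟩) hab (stab_two E hab) {a, b, c} Finset.card_le_three ?_ ?_
  · intro x hx
    exact key _ (comm_fix hx haσ) ((cn_eq E hT hx _).trans (Nat.eq_of_beq_eq_true hca))
  · intro x hx
    exact key _ (comm_fix hx hbσ) ((cn_eq E hT hx _).trans (Nat.eq_of_beq_eq_true hcb))

theorem k3_spec {σ : Pm} {T a b b' y y' y'' : ℕ} (hT : Tab σ T) (h : k3 T a b b' y y' y'' = true) : Concl Γ σ := by
  left
  unfold k3 at h
  simp only [Bool.and_eq_true, Bool.not_eq_true'] at h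
  obtain ⟨⟨⟨ha, haf⟩, hb, hbf⟩, ⟨⟨hy, hyf⟩, hay, hby⟩, ⟨hab, hab', hay', hay''⟩, ⟨hne, hne2, haa⟩, h1⟩ := h
  have ha' : a < 165 := Nat.le_of_ble_eq_true ha
  have hb' : b < 165 := Nat.le_of_ble_eq_true hb
  have hy' : y < 165 := Nat.le_of_ble_eq_true hy
  have key : ∀ x : Fin 165, σ x = x → ((x : ℕ) = a ∨ (x : ℕ) = b ∨ (x : ℕ) = b') ∨
      ((x : ℕ) = y ∨ (x : ℕ) = y' ∨ (x : ℕ) = y'') := by
    intro x hx
    have h3 := allN_spec h1 x x.2
    simp only [Bool.or_eq_true, Bool.not_eq_true'] at h3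
    rcases h3 with h3 | (h3 | h3 | h3) | h3 | h3 | h3
    · rw [(hT.fix x).2 hx] at h3
      exact absurd h3 (by simp)
    all_goals have h4 := Nat.eq_of_beq_eq_true h3; tauto
  have haσ : σ ⟨a, ha'⟩ = ⟨a, ha'⟩ := (hT.fix ⟨a, ha'⟩).1 haf
  have hbσ : σ ⟨b, hb'⟩ = ⟨b, hb'⟩ := (hT.fix ⟨b, hb'⟩).1 hbf
  have hyσ : σ ⟨y, hy'⟩ = ⟨y, hy'⟩ := (hT.fix ⟨y, hy'⟩).1 hyf
  refine bound_six (a := ⟨a, ha'⟩) (b := ⟨b, hb'⟩) (y := ⟨y, hy'⟩) (b' := b') (y' := y') (y'' := y'')
    (stab_three E hab hay hby) ?_ ?_ ?_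
  · intro x hx
    have h2 := key _ (comm_fix hx haσ)
    simp only [Finset.mem_insert, Finset.mem_singleton]
    tauto
  · intro x hx hxa
    have h2 := key _ (comm_fix hx hbσ)
    have h3 := E.adj x (mem_Ce.1 hx).1 ⟨a, ha'⟩ ⟨b, hb'⟩
    rw [hxa] at h3
    have h4 : adB a ((x ⟨b, hb'⟩ : Fin 165) : ℕ) = false := h3.trans hab
    simp only [Finset.mem_insert, Finset.mem_singleton]
    rcases h2 with (h2 | h2 | h2) | h2 | h2 | h2
    · rw [h2, haa] at h4; exact absurd h4 (by simp)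
    · exact Or.inl h2
    · exact Or.inr h2
    · rw [h2, hay] at h4; exact absurd h4 (by simp)
    · rw [h2, hay'] at h4; exact absurd h4 (by simp)
    · rw [h2, hay''] at h4; exact absurd h4 (by simp)
  · intro x hx hxa hxb
    have h2 := key _ (comm_fix hx hyσ)
    have h3 := E.adj x (mem_Ce.1 hx).1 ⟨a, ha'⟩ ⟨y, hy'⟩
    rw [hxa] at h3
    have h4 : adB a ((x ⟨y, hy'⟩ : Fin 165) : ℕ) = true := h3.trans hay
    simp only [Finset.mem_insert, Finset.mem_singleton]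
    rcases h2 with (h2 | h2 | h2) | h2
    · exfalso
      have h5 : x ⟨y, hy'⟩ = ⟨a, ha'⟩ := Fin.ext h2
      have h6 : (⟨y, hy'⟩ : Fin 165) = ⟨a, ha'⟩ := x.injective (h5.trans hxa.symm)
      have h7 : y = a := congrArg Fin.val h6
      rw [h7, Nat.beq_refl] at hne
      exact absurd hne (by simp)
    · rw [h2, hab] at h4; exact absurd h4 (by simp)
    · rw [h2, hab'] at h4; exact absurd h4 (by simp)
    · exact h2

/-! ### The reflections -/

theorem g_sq (k : ℕ) : g k * g k = 1 := by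
  have key : ∀ k < 5, ∀ m, GT m = GT k → g m * g m = 1 := by
    intro k hk m hm
    ext i
    have h1 := Nat.eq_of_beq_eq_true (allN_spec (allN_spec chk_inv k hk) i i.2)
    rw [Equiv.Perm.mul_apply, E.tab m, E.tab m, hm, h1]
    rfl
  match k with
  | 0 => exact key 0 (by norm_num) 0 rfl
  | 1 => exact key 1 (by norm_num) 1 rfl
  | 2 => exact key 2 (by norm_num) 2 rfl
  | 3 => exact key 3 (by norm_num) 3 rfl
  | k + 4 => exact key 4 (by norm_num) (k + 4) rfl

theorem wd_reverse (w : List ℕ) : wd g w.reverse = (wd g w)⁻¹ := by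
  induction w with
  | nil => exact inv_one.symm
  | cons k w ih =>
    have h1 : wd g (k :: w) = g k * wd g w := rfl
    have h2 : wd g [k] = g k := mul_one _
    rw [List.reverse_cons, wd_append, ih, h1, mul_inv_rev, h2]
    congr 1
    rw [eq_inv_iff_mul_eq_one]
    exact g_sq E k

theorem tab_R : Tab (wd g R1w) R1 := Tab.word E.tab word_R1

theorem rf_eq (w : List ℕ) (b : Fin 165) : (((wd g w * wd g R1w * (wd g w)⁻¹) b : Fin 165) : ℕ) = rf w b := by
  unfold rf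
  rw [← wd_reverse E, Equiv.Perm.mul_apply, Equiv.Perm.mul_apply, val_wd E w, tab_R E _, val_wd E]

theorem R_cube : wd g R1w * wd g R1w * wd g R1w = 1 := by
  ext i
  have h : (allN 165 fun i => Nat.beq (gt R1 (gt R1 (gt R1 i))) i) = true := by decide +kernel
  have h1 := Nat.eq_of_beq_eq_true (allN_spec h i i.2)
  rw [Equiv.Perm.mul_apply, Equiv.Perm.mul_apply, tab_R E _, tab_R E _, tab_R E _, h1]
  rfl

theorem card_R : Nat.card ↥(Ce Γ (wd g R1w)) ≤ 77760 := by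
  have hmono : ∀ d i : ℕ, i + d + 1 < 176 → cd (RF.getD i []) < cd (RF.getD (i + d + 1) []) := by
    intro d
    induction d with
    | zero =>
      intro i hi
      exact Nat.le_of_ble_eq_true (allN_spec chk_R i (by omega))
    | succ d ih =>
      intro i hi
      have h1 := ih i (by omega)
      have h2 : cd (RF.getD (i + d + 1) []) < cd (RF.getD (Nat.succ (i + d + 1)) []) :=
        Nat.le_of_ble_eq_true (allN_spec chk_R (i + d + 1) (by omega))
      exact h1.trans h2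
  have hinj : ∀ i j : Fin 176, cd (RF.getD i []) = cd (RF.getD j []) → i = j := by
    intro i j h
    rcases lt_trichotomy (i : ℕ) (j : ℕ) with h1 | h1 | h1
    · have h2 := hmono (j - i - 1) i (by omega)
      have h3 : (i : ℕ) + (j - i - 1) + 1 = j := by omega
      rw [h3] at h2
      omega
    · exact Fin.ext h1
    · have h2 := hmono (i - j - 1) j (by omega)
      have h3 : (j : ℕ) + (i - j - 1) + 1 = i := by omega
      rw [h3] at h2
      omega
  have h := card_mul_le (H := Γ) (K := Ce Γ (wd g R1w)) (fun i : Fin 176 => wd g (RF.getD i [])) (fun i => wd_mem' E _)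
    inf_le_left ?_
  · rw [Fintype.card_fin, E.card] at h
    omega
  · intro i j h1
    apply hinj
    have h2 := (mem_Ce.1 h1).2
    have h3 : wd g (RF.getD i []) * wd g R1w * (wd g (RF.getD i []))⁻¹ =
        wd g (RF.getD j []) * wd g R1w * (wd g (RF.getD j []))⁻¹ := by
      have h4 : wd g (RF.getD i []) * (wd g R1w * ((wd g (RF.getD i []))⁻¹ * wd g (RF.getD j []))) *
          (wd g (RF.getD j []))⁻¹ = wd g (RF.getD i []) * ((wd g (RF.getD i []))⁻¹ * wd g (RF.getD j []) * wd g R1w) *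
          (wd g (RF.getD j []))⁻¹ := by rw [h2]
      calc _ = wd g (RF.getD i []) * (wd g R1w * ((wd g (RF.getD i []))⁻¹ * wd g (RF.getD j []))) *
          (wd g (RF.getD j []))⁻¹ := by group
        _ = _ := by rw [h4]; group
    have key : ∀ b : Fin 165, rf (RF.getD i []) b = rf (RF.getD j []) b := by
      intro b
      rw [← rf_eq E, ← rf_eq E, h3]
    unfold cd
    rw [key ⟨0, by norm_num⟩, key ⟨37, by norm_num⟩, key ⟨42, by norm_num⟩, key ⟨1, by norm_num⟩]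

/-- the conclusion for the reflection and its square -/
theorem concl_R {ρ : Pm} (h : ρ = wd g R1w ∨ ρ = wd g R1w * wd g R1w) : Concl Γ ρ := by
  have hF := chk_F
  simp only [Bool.and_eq_true] at hF
  obtain ⟨hF1, hF2, hF3⟩ := hF
  have hlt : ∀ i < 5, tp.getD i 0 < 165 := by
    intro i hi
    have h1 := allN_spec hF2 i hi
    simp only [Bool.and_eq_true] at h1
    exact Nat.le_of_ble_eq_true h1.1
  have htab : Tab (wd g fw) F5 := Tab.word E.tab word_F5
  have hcomm : Commute (wd g fw) (wd g R1w) := by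
    show _ * _ = _ * _
    ext i
    have h1 := Nat.eq_of_beq_eq_true (allN_spec hF1 i i.2)
    rw [Equiv.Perm.mul_apply, Equiv.Perm.mul_apply, htab, tab_R E _, tab_R E _, htab]
    exact h1
  have hfix : ∀ i : Fin 5, (wd g R1w) ⟨tp.getD i 0, hlt i i.2⟩ = ⟨tp.getD i 0, hlt i i.2⟩ := by
    intro i
    have h1 := allN_spec hF2 i i.2
    simp only [Bool.and_eq_true] at h1
    apply Fin.ext
    rw [tab_R E _]
    exact Nat.eq_of_beq_eq_true h1.2.1
  right
  refine ⟨?_, wd g fw, wd_mem' E _, ?_, fun i => ⟨tp.getD i 0, hlt i i.2⟩, ?_, ?_, ?_, ?_⟩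
  · refine le_trans (Subgroup.card_le_of_le ?_) (card_R E)
    rcases h with rfl | rfl
    · exact le_rfl
    · intro x hx
      obtain ⟨hx1, hx2⟩ := mem_Ce.1 hx
      refine mem_Ce.2 ⟨hx1, ?_⟩
      have h3 := R_cube E
      have h4 : (wd g R1w * wd g R1w) * (wd g R1w * wd g R1w) = wd g R1w := by
        rw [← mul_assoc, h3, one_mul]
      have h5 : Commute (wd g R1w * wd g R1w) x := hx2
      have h6 := h5.mul_left h5
      rw [h4] at h6
      exact h6.eq
  · rcases h with rfl | rfl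
    · exact hcomm
    · exact hcomm.mul_right hcomm
  · intro i j hij
    have h1 := allN_spec (allN_spec hF3 i i.2) j j.2
    simp only [Bool.and_eq_true, Bool.or_eq_true, Bool.not_eq_true'] at h1
    have h2 : tp.getD i 0 = tp.getD j 0 := congrArg Fin.val hij
    rcases h1.2 with h3 | h3
    · exact Fin.ext (Nat.eq_of_beq_eq_true h3)
    · rw [h2, Nat.beq_refl] at h3
      exact absurd h3 (by simp)
  · intro i
    rcases h with rfl | rfl
    · exact hfix i
    · rw [Equiv.Perm.mul_apply, hfix, hfix]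
  · intro i j
    have h1 := allN_spec (allN_spec hF3 i i.2) j j.2
    simp only [Bool.and_eq_true] at h1
    exact h1.1
  · intro i
    have h1 := allN_spec hF2 i i.2
    simp only [Bool.and_eq_true] at h1
    apply Fin.ext
    rw [htab]
    have h2 := Nat.eq_of_beq_eq_true h1.2.2
    have h3 : ((i + 1 : Fin 5) : ℕ) = ((i : ℕ) + 1) % 5 := by
      rw [Fin.val_add]; rfl
    show gt F5 (tp.getD (i : ℕ) 0) = tp.getD ((i + 1 : Fin 5) : ℕ) 0
    rw [h3]
    exact h2

theorem k4_spec {σ : Pm} {T e : ℕ} {w : List ℕ} (hT : Tab σ T) (h : k4 T e w = true) : Concl Γ σ := by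
  unfold k4 at h
  simp only [Bool.and_eq_true, Bool.or_eq_true] at h
  have main : ∀ ρ : Pm, σ * wd g w = wd g w * ρ → (ρ = wd g R1w ∨ ρ = wd g R1w * wd g R1w) → Concl Γ σ := by
    intro ρ h1 h2
    have h3 : σ = wd g w * ρ * (wd g w)⁻¹ := by rw [← h1, mul_inv_cancel_right]
    rw [h3]
    exact (concl_R E h2).conj E.adj (wd_mem' E w)
  rcases h with ⟨-, h⟩ | ⟨-, h⟩
  · refine main (wd g R1w) ?_ (Or.inl rfl)
    ext i
    have h1 := Nat.eq_of_beq_eq_true (allN_spec h i i.2)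
    rw [Equiv.Perm.mul_apply, Equiv.Perm.mul_apply, hT, val_wd E, val_wd E, tab_R E _]
    exact h1
  · refine main (wd g R1w * wd g R1w) ?_ (Or.inr rfl)
    ext i
    have h1 := Nat.eq_of_beq_eq_true (allN_spec h i i.2)
    rw [Equiv.Perm.mul_apply, Equiv.Perm.mul_apply, Equiv.Perm.mul_apply, hT, val_wd E, val_wd E, tab_R E _, tab_R E _]
    exact h1

theorem kc_spec {σ : Pm} {T : ℕ} {l : List ℕ} (hT : Tab σ T) (h3 : σ ^ 3 = 1) (h : kc T l = true) : Concl Γ σ := by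
  cases l with
  | nil => exact absurd h (by simp [kc])
  | cons k l =>
    unfold kc at h
    simp only [Bool.and_eq_true, Bool.or_eq_true] at h
    rcases h with ⟨-, h⟩ | ⟨-, h⟩ | ⟨-, h⟩ | ⟨-, h⟩ | ⟨-, h⟩
    · exfalso
      unfold k0 at h
      simp only [Bool.and_eq_true, Bool.not_eq_true'] at h
      have h4 : l.getD 0 165 < 165 := Nat.le_of_ble_eq_true h.1
      have h5 : (σ ^ 3) ⟨l.getD 0 165, h4⟩ = ⟨l.getD 0 165, h4⟩ := by rw [h3]; rfl
      have h6 := congrArg Fin.val h5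
      rw [pow_three, Equiv.Perm.mul_apply, Equiv.Perm.mul_apply, hT, hT, hT] at h6
      have h7 : gt T (gt T (gt T (l.getD 0 165))) = l.getD 0 165 := h6
      rw [h7, Nat.beq_refl] at h
      exact absurd h.2 (by simp)
    · exact k1_spec E hT h
    · exact k2_spec E hT h
    · exact k3_spec E hT h
    · exact k4_spec E hT h

/-! ### The Sylow 3-subgroup -/

omit E in
/-- the generators of the Sylow subgroup -/
def xg (g : ℕ → Pm) : ℕ → Pm
  | 0 => wd g R1w
  | 1 => wd g R4w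
  | _ => wd g Cw

theorem tab_xg (k : ℕ) : Tab (xg g k) (XT k) := by
  match k with
  | 0 => exact Tab.word E.tab word_R1
  | 1 => exact Tab.word E.tab word_R4
  | k + 2 => exact Tab.word E.tab word_C1

theorem xg_mem (k : ℕ) : xg g k ∈ Γ := by
  match k with
  | 0 => exact wd_mem' E _
  | 1 => exact wd_mem' E _
  | k + 2 => exact wd_mem' E _

theorem xg_cube (k : ℕ) : xg g k * xg g k * xg g k = 1 := by
  have key : ∀ T, (allN 165 fun i => Nat.beq (gt T (gt T (gt T i))) i) = true → ∀ x : Pm, Tab x T → x * x * x = 1 := by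
    intro T h x hx
    ext i
    have h1 := Nat.eq_of_beq_eq_true (allN_spec h i i.2)
    rw [Equiv.Perm.mul_apply, Equiv.Perm.mul_apply, hx, hx, hx, h1]
    rfl
  match k with
  | 0 => exact key R1 (by decide +kernel) _ (tab_xg E 0)
  | 1 => exact key R4 (by decide +kernel) _ (tab_xg E 1)
  | k + 2 => exact key C1 (by decide +kernel) _ (tab_xg E (k + 2))

omit E in
/-- the Sylow subgroup -/
def Q (g : ℕ → Pm) : Subgroup Pm := closure {x | ∃ k < 3, x = xg g k}

theorem Q_le : Q g ≤ Γ := by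
  unfold Q
  rw [closure_le]
  rintro _ ⟨k, -, rfl⟩
  exact xg_mem E k

omit E in
theorem chkM_all : ∀ k < 3, chkM k = true := by
  intro k hk
  match k, hk with
  | 0, _ => exact chk_M0
  | 1, _ => exact chk_M1
  | 2, _ => exact chk_M2

theorem step {k j : ℕ} (hk : k < 3) (hj : j < 243) {y : Pm} (hy : Tab y (V.getD j 0)) :
    (MG k).getD j 0 < 243 ∧ Tab (xg g k * y) (V.getD ((MG k).getD j 0) 0) := by
  have h := allN_spec (chkM_all k hk) j hj
  rw [Bool.and_eq_true] at h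
  exact ⟨Nat.le_of_ble_eq_true h.1, (tab_xg E k).mul hy h.2⟩

omit E in
theorem tab_one : Tab (1 : Pm) (V.getD 0 0) := by
  intro i
  exact (Nat.eq_of_beq_eq_true (allN_spec chk_V0 i i.2)).symm

theorem exists_index {x : Pm} (hx : x ∈ Q g) : ∃ j < 243, Tab x (V.getD j 0) := by
  unfold Q at hx
  induction hx using closure_induction_left with
  | one => exact ⟨0, by norm_num, tab_one⟩
  | mul_left x hx y hy ih =>
    obtain ⟨k, hk, rfl⟩ := hx
    obtain ⟨j, hj, hT⟩ := ih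
    exact ⟨_, step E hk hj hT⟩
  | inv_mul_cancel x hx y hy ih =>
    obtain ⟨k, hk, rfl⟩ := hx
    obtain ⟨j, hj, hT⟩ := ih
    obtain ⟨h1, h2⟩ := step E hk hj hT
    obtain ⟨h3, h4⟩ := step E hk h1 h2
    have h5 : (xg g k)⁻¹ * y = xg g k * (xg g k * y) := by
      rw [← mul_assoc, inv_mul_eq_iff_eq_mul, ← mul_assoc, ← mul_assoc, xg_cube E, one_mul]
    exact ⟨_, h3, h5 ▸ h4⟩

theorem exists_elt (j : ℕ) : j < 243 → ∃ x ∈ Q g, Tab x (V.getD j 0) := by
  induction j using Nat.strong_induction_on with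
  | _ j ih =>
    intro hj
    have h := allN_spec chk_tree j hj
    rw [Bool.or_eq_true] at h
    rcases h with h | h
    · rw [Nat.eq_of_beq_eq_true h]
      exact ⟨1, one_mem _, tab_one⟩
    · rw [Bool.and_eq_true, Bool.and_eq_true] at h
      have h1 : TP.getD j 0 < j := Nat.le_of_ble_eq_true h.1
      have h2 : TG.getD j 0 < 3 := Nat.le_of_ble_eq_true h.2.1
      have h3 := Nat.eq_of_beq_eq_true h.2.2
      obtain ⟨x, hx, hT⟩ := ih _ h1 (h1.trans hj)
      refine ⟨xg g (TG.getD j 0) * x, mul_mem (subset_closure ⟨_, h2, rfl⟩) hx, ?_⟩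
      have h4 := (step E h2 (h1.trans hj) hT).2
      rwa [h3] at h4

theorem card_Q : Nat.card (Q g) = 243 := by
  apply le_antisymm
  · -- every element has an index
    choose ix hix using fun x : Q g => exists_index E x.2
    have h := Nat.card_le_card_of_injective (fun x : Q g => (⟨ix x, (hix x).1⟩ : Fin 243)) (by
      intro x y hxy
      have h1 : ix x = ix y := congrArg Fin.val hxy
      have h2 := (hix x).2
      rw [h1] at h2
      exact Subtype.ext (h2.ext (hix y).2))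
    rwa [Nat.card_eq_fintype_card (α := Fin 243), Fintype.card_fin] at h
  · choose el hel using fun j : Fin 243 => exists_elt E j j.2
    have hdist : ∀ i j : Fin 243, (j : ℕ) < i → el i ≠ el j := by
      intro i j hij h
      have h1 := allN_spec (allN_spec chk_dist i i.2) j hij
      have h2 := (hel i).2 ⟨2, by norm_num⟩
      have h3 := (hel j).2 ⟨2, by norm_num⟩
      have h4 := (hel i).2 ⟨9, by norm_num⟩
      have h5 := (hel j).2 ⟨9, by norm_num⟩
      rw [h] at h2 h4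
      have h6 : gt (V.getD i 0) 2 = gt (V.getD j 0) 2 := h2.symm.trans h3
      have h7 : gt (V.getD i 0) 9 = gt (V.getD j 0) 9 := h4.symm.trans h5
      rw [h6, h7, Nat.beq_refl, Nat.beq_refl] at h1
      exact absurd h1 (by simp)
    have h := Nat.card_le_card_of_injective (fun j : Fin 243 => (⟨el j, (hel j).1⟩ : Q g)) (by
      intro i j hij
      have h1 : el i = el j := congrArg Subtype.val hij
      rcases lt_trichotomy (i : ℕ) (j : ℕ) with h2 | h2 | h2
      · exact absurd h1.symm (hdist j i h2)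
      · exact Fin.ext h2
      · exact absurd h1 (hdist i j h2))
    rwa [Nat.card_eq_fintype_card (α := Fin 243), Fintype.card_fin] at h

omit E in
theorem chkK_all {j : ℕ} (hj : j < 243) (h0 : j ≠ 0) : kc (V.getD j 0) (CT.getD j []) = true := by
  have key : ∀ a m, chkK a m = true → ∀ i < m, a + i ≠ 0 → kc (V.getD (a + i) 0) (CT.getD (a + i) []) = true := by
    intro a m h i hi hne
    have h1 := allN_spec h i hi
    rw [Bool.or_eq_true] at h1
    rcases h1 with h1 | h1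
    · exact absurd (Nat.eq_of_beq_eq_true h1) hne
    · exact h1
  have h1 : j < 60 ∨ (60 ≤ j ∧ j < 120) ∨ (120 ≤ j ∧ j < 180) ∨ 180 ≤ j := by omega
  rcases h1 with h1 | ⟨h1, h2⟩ | ⟨h1, h2⟩ | h1
  · have h3 := key 0 60 chk_K0 j h1 (by omega)
    rwa [Nat.zero_add] at h3
  · obtain ⟨i, rfl⟩ := Nat.exists_eq_add_of_le h1
    exact key 60 60 chk_K1 i (by omega) h0
  · obtain ⟨i, rfl⟩ := Nat.exists_eq_add_of_le h1
    exact key 120 60 chk_K2 i (by omega) h0
  · obtain ⟨i, rfl⟩ := Nat.exists_eq_add_of_le h1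
    exact key 180 63 chk_K3 i (by omega) h0

theorem concl_Q {x : Pm} (hx : x ∈ Q g) (h3 : x ^ 3 = 1) (h1 : x ≠ 1) : Concl Γ x := by
  obtain ⟨j, hj, hT⟩ := exists_index E hx
  have h0 : j ≠ 0 := by
    rintro rfl
    exact h1 (hT.ext (tab_one))
  exact kc_spec E hT h3 (chkK_all hj h0)

/-- **The elements of order three.** -/
theorem main {σ : Pm} (hσ : σ ∈ Γ) (h3 : σ ^ 3 = 1) (h1 : σ ≠ 1) : Concl Γ σ := by
  have : Fact (Nat.Prime 3) := ⟨Nat.prime_three⟩
  have hfac : (13685760 : ℕ).factorization 3 = 5 := by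
    rw [show (13685760 : ℕ) = 3 ^ 5 * 56320 by norm_num, Nat.factorization_mul (by norm_num) (by norm_num),
      Finsupp.add_apply, Nat.Prime.factorization_pow Nat.prime_three, Finsupp.single_eq_same,
      Nat.factorization_eq_zero_of_not_dvd (by norm_num)]
  have hcQ : Nat.card ((Q g).subgroupOf Γ) = 3 ^ (Nat.card Γ).factorization 3 := by
    rw [E.card, hfac, Nat.card_congr (subgroupOfEquivOfLe (Q_le E)).toEquiv, card_Q E]
    norm_num
  let P : Sylow 3 Γ := Sylow.ofCard ((Q g).subgroupOf Γ) hcQ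
  have hp : IsPGroup 3 (zpowers (⟨σ, hσ⟩ : Γ)) := by
    refine IsPGroup.of_card (n := (Nat.card (zpowers (⟨σ, hσ⟩ : Γ))).factorization 3) ?_
    have h4 : (⟨σ, hσ⟩ : Γ) ^ 3 = 1 := Subtype.ext h3
    rw [Nat.card_zpowers]
    have h5 : (⟨σ, hσ⟩ : Γ) ≠ 1 := fun h => h1 (congrArg Subtype.val h)
    rw [orderOf_eq_prime h4 h5, Nat.Prime.factorization_self Nat.prime_three, pow_one]
  obtain ⟨P', hP'⟩ := hp.exists_le_sylow
  obtain ⟨y, hy⟩ := MulAction.exists_smul_eq Γ P' P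
  have h4 : y * ⟨σ, hσ⟩ * y⁻¹ ∈ (P : Subgroup Γ) := by
    rw [← hy, Sylow.coe_subgroup_smul]
    have h9 := Subgroup.smul_mem_pointwise_smul _ (MulAut.conj y) (P' : Subgroup Γ) (hP' (mem_zpowers _))
    rwa [MulAut.smul_def, MulAut.conj_apply] at h9
  have h5 : (y : Pm) * σ * (y : Pm)⁻¹ ∈ Q g := h4
  have h6 := concl_Q E h5 (by rw [conj_pow, h3, mul_one, mul_inv_cancel]) (by
    intro h
    apply h1
    have h7 : (y : Pm) * σ = y := by rw [mul_inv_eq_one] at h; exact h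
    exact mul_eq_left.1 h7)
  have h7 := h6.conj E.adj (Γ.inv_mem y.2)
  have h8 : (y : Pm)⁻¹ * ((y : Pm) * σ * (y : Pm)⁻¹) * ((y : Pm)⁻¹)⁻¹ = σ := by group
  rwa [h8] at h7

end env

end Cfsg.Agent.H933.R7
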