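import Cfsg.Agent.H834.U5Main
import Cfsg.Agent.SylowU5.Iso
import Cfsg.Agent.H933.R7.Perm

/-!
# `Fi24`: the elements of order three of `S0 = 2 × PSU(5, 2)` (helper933, for S2492)

* `s_cases` : `s ∈ S0 ∩ Fi24'` of order three has at most 3888 commuting elements in `S0 ∩ Fi24'`, or at most 77760 and
  there is a cycle of five commuting transpositions commuting with `s`.
-/

set_option autoImplicit false
set_option maxRecDepth 100000

namespace Cfsg.Agent.H933.R7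

/-- the predecessor of a point -/
def PA : List ℕ := [0, 134, 10, 27, 26, 13, 90, 30, 17, 1, 34, 36, 4, 22, 6, 114, 8, 120, 6, 11, 7, 15, 97, 27, 
  28, 21, 32, 125, 1, 5, 43, 28, 141, 13, 79, 9, 108, 119, 125, 154, 85, 67, 80, 155, 140, 164, 158, 137, 55, 147, 
  163, 131, 134, 38, 102, 134, 150, 136, 146, 148, 115, 157, 142, 49, 112, 151, 162, 52, 132, 94, 150, 103, 120, 
  64, 161, 123, 42, 128, 131, 96, 131, 129, 114, 37, 65, 44, 150, 119, 143, 160, 73, 121, 105, 155, 47, 50, 144, 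
  113, 56, 147, 66, 136, 61, 90, 88, 57, 130, 91, 76, 100, 94, 81, 119, 83, 99, 67, 70, 102, 139, 70, 86, 72, 139, 
  157, 51, 93, 78, 140, 48, 87, 98, 116, 29, 158, 86, 39, 56, 51, 97, 59, 106, 64, 67, 160, 80, 65, 50, 101, 129, 
  108, 0, 55, 79, 163, 137, 57, 24, 164, 111, 114, 80, 49, 120, 83, 130]

/-- the generator of a point -/
def PG : List ℕ := [0, 1, 4, 3, 3, 2, 1, 4, 3, 4, 3, 3, 4, 3, 2, 1, 2, 1, 3, 2, 3, 3, 1, 4, 4, 4, 2, 1, 3, 4, 1, 
  2, 1, 4, 1, 3, 1, 1, 3, 3, 4, 1, 3, 2, 2, 3, 2, 3, 3, 4, 4, 2, 3, 4, 2, 4, 4, 3, 1, 1, 3, 2, 2, 1, 2, 3, 2, 4, 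
  0, 3, 2, 2, 2, 1, 3, 2, 4, 4, 3, 4, 1, 2, 2, 3, 4, 3, 0, 2, 3, 1, 4, 4, 4, 1, 4, 3, 2, 2, 3, 2, 4, 1, 3, 3, 2, 
  2, 1, 2, 2, 3, 2, 1, 3, 4, 4, 2, 3, 4, 3, 4, 4, 3, 4, 3, 3, 2, 2, 1, 2, 3, 2, 4, 1, 3, 2, 2, 2, 1, 3, 2, 4, 4, 
  3, 4, 0, 2, 2, 3, 4, 3, 1, 2, 3, 1, 4, 4, 1, 1, 4, 3, 2, 2, 3, 2, 4]

/-- the depth of a point -/
def DP : List ℕ := [0, 4, 11, 9, 9, 10, 8, 8, 5, 5, 10, 10, 10, 9, 9, 8, 6, 4, 9, 11, 9, 9, 8, 9, 6, 10, 8, 8, 5, 
  11, 7, 6, 7, 10, 9, 6, 9, 4, 8, 8, 9, 6, 6, 6, 7, 6, 9, 7, 5, 6, 7, 5, 4, 9, 9, 4, 2, 4, 9, 7, 7, 7, 7, 7, 5, 6, 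
  5, 5, 13, 9, 2, 9, 4, 6, 8, 8, 7, 7, 5, 8, 5, 6, 8, 5, 7, 8, 2, 4, 8, 7, 7, 6, 6, 6, 8, 8, 7, 7, 3, 6, 6, 4, 8, 
  8, 9, 5, 5, 7, 8, 7, 9, 7, 4, 6, 7, 6, 3, 9, 9, 3, 3, 5, 9, 7, 6, 7, 6, 7, 6, 5, 4, 4, 12, 9, 3, 9, 3, 6, 8, 8, 
  6, 6, 6, 7, 6, 7, 8, 5, 6, 9, 1, 5, 9, 7, 7, 5, 7, 6, 8, 8, 6, 7, 4, 6, 5]

/-- the graph and the tree -/
theorem chk_adj : (allN 165 fun i => or (Nat.beq i 0) (and (and (Nat.blt (PA.getD i 0) 165) (Nat.blt (PG.getD i 0) 5))
    (and (and (Nat.blt (DP.getD (PA.getD i 0) 0) (DP.getD i 0)) (Nat.beq (gt (GT (PG.getD i 0)) (PA.getD i 0)) i))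
      (allN 165 fun j => adB i j == adB (PA.getD i 0) (gt (GT (PG.getD i 0)) j))))) = true := by decide +kernel

theorem chk_adj0 : (allN 165 fun j => adB 0 j == Nat.beq (gt (GT 0) j) j) = true := by decide +kernel

theorem chk_sg : (allN 5 fun k => allN 165 fun i => Nat.beq (gt (GT k) i) (Cfsg.Agent.H834.U5.sgf k i)) = true := by
  decide +kernel

open Cfsg.Agent.H834.U5 hiding K
open Cfsg.Agent.Fischer.Fi24Final (sgn)
open Cfsg.Agent.Lib.FieldFour
open Cfsg.Spor (Fi24)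

theorem gt_eq {k i : ℕ} (hk : k < 5) (hi : i < 165) : gt (GT k) i = sgf k i :=
  Nat.eq_of_beq_eq_true (allN_spec (allN_spec chk_sg k hk) i hi)

theorem Ps_inj {i j : ℕ} (hi : i < 165) (hj : j < 165) (h : Ps i = Ps j) : i = j := by
  have h1 := isPt_Ps hi
  rw [h] at h1
  exact pt_inj hi hj (h1.uniq (isPt_Ps hj))

theorem ge_zero_eq : ge 0 = Ps 0 := by rw [Ps_zero, ge_zero]

theorem adB_iff_aux (d : ℕ) : ∀ i < 165, DP.getD i 0 ≤ d → ∀ j < 165,
    (adB i j = true ↔ Commute (Ps i) (Ps j)) := by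
  have hzero : ∀ j < 165, (adB 0 j = true ↔ Commute (Ps 0) (Ps j)) := by
    intro j hj
    have h1 := allN_spec chk_adj0 j hj
    rw [beq_iff_eq] at h1
    have h2 : Commute (Ps 0) (Ps j) ↔ Ps (sgf 0 j) = Ps j := by
      rw [← conj_Ps (k := 0) (by norm_num) hj, ge_zero_eq, mul_inv_eq_iff_eq_mul]
      rfl
    rw [h1, h2, gt_eq (by norm_num) hj]
    constructor
    · intro h; rw [Nat.eq_of_beq_eq_true h]
    · intro h; rw [Ps_inj (sgf_lt (by norm_num) hj) hj h]; exact Nat.beq_refl _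
  induction d with
  | zero =>
    intro i hi hd j hj
    have h := allN_spec chk_adj i hi
    simp only [Bool.or_eq_true, Bool.and_eq_true] at h
    rcases h with h | ⟨-, ⟨h, -⟩, -⟩
    · rw [Nat.eq_of_beq_eq_true h]; exact hzero j hj
    · have h1 : DP.getD (PA.getD i 0) 0 < DP.getD i 0 := Nat.le_of_ble_eq_true h
      omega
  | succ d ih =>
    intro i hi hd j hj
    have h := allN_spec chk_adj i hi
    simp only [Bool.or_eq_true, Bool.and_eq_true] at h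
    rcases h with h | ⟨⟨hp, hk⟩, ⟨h1, h2⟩, h3⟩
    · rw [Nat.eq_of_beq_eq_true h]; exact hzero j hj
    · have hp' : PA.getD i 0 < 165 := Nat.le_of_ble_eq_true hp
      have hk' : PG.getD i 0 < 5 := Nat.le_of_ble_eq_true hk
      have h1' : DP.getD (PA.getD i 0) 0 < DP.getD i 0 := Nat.le_of_ble_eq_true h1
      have h2' := Nat.eq_of_beq_eq_true h2
      have h4 := allN_spec h3 j hj
      rw [beq_iff_eq] at h4
      rw [gt_eq hk' hp'] at h2'
      rw [gt_eq hk' hj] at h4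
      rw [h4, ih _ hp' (by omega) _ (sgf_lt hk' hj)]
      have h5 := conj_Ps hk' hp'
      rw [h2'] at h5
      have h6 := conj_Ps hk' (sgf_lt hk' hj)
      rw [sgf_inv hk' hj] at h6
      rw [← h5, ← h6, commute_conj]

theorem adB_iff {i j : ℕ} (hi : i < 165) (hj : j < 165) : adB i j = true ↔ Commute (Ps i) (Ps j) :=
  adB_iff_aux _ i hi le_rfl j hj

/-! ### The action -/

theorem exists_im (x : S0) (i : Fin 165) : ∃ j : Fin 165, (x : Fi24) * Ps i * (x : Fi24)⁻¹ = Ps j := by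
  obtain ⟨j, hj, h⟩ := exists_Ps (conj_mem x.2 (Ps_mem_T0 i.2))
  exact ⟨⟨j, hj⟩, h⟩

/-- the image of a label -/
noncomputable def im (x : S0) (i : Fin 165) : Fin 165 := (exists_im x i).choose

theorem im_spec (x : S0) (i : Fin 165) : (x : Fi24) * Ps i * (x : Fi24)⁻¹ = Ps (im x i) := (exists_im x i).choose_spec

theorem im_eq {x : S0} {i j : Fin 165} (h : (x : Fi24) * Ps i * (x : Fi24)⁻¹ = Ps j) : im x i = j :=
  Fin.ext (Ps_inj (im x i).2 j.2 ((im_spec x i).symm.trans h))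

theorem im_mul (x y : S0) (i : Fin 165) : im (x * y) i = im x (im y i) := by
  apply im_eq
  rw [← im_spec, ← im_spec]
  show (x : Fi24) * y * Ps i * ((x : Fi24) * y)⁻¹ = _
  group

theorem im_one (i : Fin 165) : im 1 i = i := by
  apply im_eq
  show (1 : Fi24) * Ps i * (1 : Fi24)⁻¹ = _
  group

/-- the action on the labels -/
noncomputable def act : S0 →* Pm where
  toFun x := ⟨im x, im x⁻¹, fun i => by rw [← im_mul, inv_mul_cancel, im_one],
    fun i => by rw [← im_mul, mul_inv_cancel, im_one]⟩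
  map_one' := Equiv.ext im_one
  map_mul' x y := Equiv.ext (im_mul x y)

theorem act_apply (x : S0) (i : Fin 165) : act x i = im x i := rfl

theorem act_eq_one {x : S0} : act x = 1 ↔ (x : Fi24) = 1 ∨ (x : Fi24) = z0 := by
  constructor
  · intro h
    apply kerlemma x.2
    intro t ht
    obtain ⟨i, hi, rfl⟩ := exists_Ps ht
    have h1 := im_spec x ⟨i, hi⟩
    rw [← act_apply, h] at h1
    exact mul_inv_eq_iff_eq_mul.1 h1
  · intro h
    ext i
    congr 1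
    rw [act_apply]
    apply im_eq
    rw [mul_inv_eq_iff_eq_mul]
    rcases h with h | h
    · rw [h, one_mul, mul_one]; rfl
    · rw [h]
      exact (S0_z0 (T0_sub (Ps_mem_T0 i.2))).symm

/-- the generators of `S0` -/
noncomputable def gs (k : ℕ) : S0 := ⟨ge (min k 4), T0_sub (ge_mem_T0 (by omega))⟩

theorem tab_gs (k : ℕ) : Tab (act (gs k)) (GT k) := by
  have key : ∀ m, m < 5 → GT k = GT m → min k 4 = m → Tab (act (gs k)) (GT k) := by
    intro m hm h1 h2 i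
    rw [act_apply, h1, gt_eq hm i.2]
    have h3 : im (gs k) i = ⟨sgf m i, sgf_lt hm i.2⟩ := by
      apply im_eq
      show ge (min k 4) * Ps i * (ge (min k 4))⁻¹ = _
      rw [h2]
      exact conj_Ps hm i.2
    rw [h3]
  match k with
  | 0 => exact key 0 (by norm_num) rfl rfl
  | 1 => exact key 1 (by norm_num) rfl rfl
  | 2 => exact key 2 (by norm_num) rfl rfl
  | 3 => exact key 3 (by norm_num) rfl rfl
  | k + 4 => exact key 4 (by norm_num) rfl (by omega)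

theorem card_range : Nat.card act.range = 13685760 := by
  obtain ⟨f, hf, hk, -⟩ := exists_hom
  have h1 : act.ker = f.ker := by
    ext x
    rw [MonoidHom.mem_ker, MonoidHom.mem_ker, act_eq_one, hk]
  have h2 : Nat.card act.range = act.ker.index := (Subgroup.index_ker act).symm
  have h3 : Nat.card f.range = f.ker.index := (Subgroup.index_ker f).symm
  rw [h2, h1, ← h3, MonoidHom.range_eq_top.2 hf, Subgroup.card_top, Cfsg.Agent.SylowU5.Iso.card_PSU (by decide)]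

theorem env : Env act.range (fun k => act (gs k)) where
  tab := tab_gs
  mem k := ⟨_, rfl⟩
  card := card_range
  adj := by
    rintro _ ⟨x, rfl⟩ i j
    have h1 : adB ((act x i : Fin 165) : ℕ) ((act x j : Fin 165) : ℕ) = true ↔ adB i j = true := by
      rw [adB_iff (act x i).2 (act x j).2, adB_iff i.2 j.2, act_apply, act_apply, ← im_spec, ← im_spec, commute_conj]
    rw [Bool.eq_iff_iff]
    exact h1

theorem sgn_of_mem {x : Fi24} (hx : x ∈ commutator Fi24) : sgn x = 1 := by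
  have h : commutator Fi24 ≤ sgn.ker := Abelianization.commutator_subset_ker sgn
  exact h hx

theorem z0_notMem : z0 ∉ commutator Fi24 := by
  intro h
  have h1 := sgn_of_mem h
  rw [sgn_z0] at h1
  exact absurd h1 (by decide)

theorem eq_one_of_act {x : S0} (h : act x = 1) (hx : (x : Fi24) ∈ commutator Fi24) : (x : Fi24) = 1 := by
  rcases act_eq_one.1 h with h1 | h1
  · exact h1
  · rw [h1] at hx
    exact absurd hx z0_notMem

/-- **The elements of order three.** -/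
theorem s_cases {s : Fi24} (hs : s ∈ S0) (hK : s ∈ commutator Fi24) (h3 : s ^ 3 = 1) (h1 : s ≠ 1) :
    Nat.card ↥(S0 ⊓ commutator Fi24 ⊓ Subgroup.centralizer {s}) ≤ 3888 ∨
      (Nat.card ↥(S0 ⊓ commutator Fi24 ⊓ Subgroup.centralizer {s}) ≤ 77760 ∧
        ∃ f ∈ S0, Commute f s ∧ ∃ t : Fin 5 → Fi24, Function.Injective t ∧ (∀ i, t i ∈ T0) ∧
          (∀ i j, Commute (t i) (t j)) ∧ (∀ i, Commute (t i) s) ∧ ∀ i, f * t i * f⁻¹ = t (i + 1)) := by
  have hσ : (act ⟨s, hs⟩) ^ 3 = 1 := by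
    rw [← map_pow]
    have h : (⟨s, hs⟩ : S0) ^ 3 = 1 := Subtype.ext h3
    rw [h, map_one]
  have hσ1 : act ⟨s, hs⟩ ≠ 1 := fun h => h1 (eq_one_of_act h hK)
  have hC := main env ⟨_, rfl⟩ hσ hσ1
  have key : Nat.card ↥(S0 ⊓ commutator Fi24 ⊓ Subgroup.centralizer {s}) ≤
      Nat.card ↥(Ce act.range (act ⟨s, hs⟩)) := by
    refine Nat.card_le_card_of_injective (fun y => ⟨act ⟨y, y.2.1.1⟩, ?_⟩) ?_
    · refine mem_Ce.2 ⟨⟨_, rfl⟩, ?_⟩
      rw [← map_mul, ← map_mul]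
      congr 1
      exact Subtype.ext (Subgroup.mem_centralizer_singleton_iff.1 y.2.2).symm
    · intro y z hyz
      have h4 : act ⟨y, y.2.1.1⟩ = act ⟨z, z.2.1.1⟩ := congrArg Subtype.val hyz
      have h5 : act ((⟨y, y.2.1.1⟩ : S0)⁻¹ * ⟨z, z.2.1.1⟩) = 1 := by
        rw [map_mul, map_inv, h4, inv_mul_cancel]
      have h6 := eq_one_of_act h5 (mul_mem (inv_mem y.2.1.2) z.2.1.2)
      have h7 : (y : Fi24)⁻¹ * (z : Fi24) = 1 := h6
      exact Subtype.ext (inv_mul_eq_one.1 h7)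
  rcases hC with h | ⟨h, f, ⟨y, rfl⟩, hf, t, ht, hfix, hadj, hft⟩
  · exact Or.inl (key.trans h)
  · refine Or.inr ⟨key.trans h, y, y.2, ?_, fun i => Ps (t i), ?_, ?_, ?_, ?_, ?_⟩
    · have h4 : act (y * ⟨s, hs⟩ * y⁻¹ * (⟨s, hs⟩ : S0)⁻¹) = 1 := by
        rw [map_mul, map_mul, map_mul, map_inv, map_inv, hf.eq, mul_inv_cancel_right, mul_inv_cancel]
      have h5 := eq_one_of_act h4 (Subgroup.commutator_mem_commutator (Subgroup.mem_top (y : Fi24)) (Subgroup.mem_top s))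
      have h6 : (y : Fi24) * s * (y : Fi24)⁻¹ * s⁻¹ = 1 := h5
      show (y : Fi24) * s = s * y
      rw [mul_inv_eq_one, mul_inv_eq_iff_eq_mul] at h6
      exact h6
    · intro i j hij
      exact ht (Fin.ext (Ps_inj (t i).2 (t j).2 hij))
    · intro i
      exact Ps_mem_T0 (t i).2
    · intro i j
      exact (adB_iff (t i).2 (t j).2).1 (hadj i j)
    · intro i
      have h4 := im_spec ⟨s, hs⟩ (t i)
      rw [← act_apply, hfix] at h4
      have h5 : s * Ps (t i) = Ps (t i) * s := mul_inv_eq_iff_eq_mul.1 h4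
      exact h5.symm
    · intro i
      have h4 := im_spec y (t i)
      rw [← act_apply, hft] at h4
      exact h4

end Cfsg.Agent.H933.R7
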