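import Mathlib.GroupTheory.Sylow
import Mathlib.GroupTheory.GroupAction.Quotient
import Mathlib.Tactic.Group

/-!
# Permutations of 165 points given by tables with 8 bits per entry (helper933)
-/

set_option autoImplicit false

namespace Cfsg.Agent.H933.R7

/-- permutations of the 165 labels -/
abbrev Pm : Type := Equiv.Perm (Fin 165)

/-- entry of a table -/
def gt (T i : ℕ) : ℕ := Nat.land (Nat.shiftRight T (Nat.mul 8 i)) 255

/-- `T` is the table of `σ` -/
def Tab (σ : Pm) (T : ℕ) : Prop := ∀ i : Fin 165, ((σ i : Fin 165) : ℕ) = gt T i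

/-- all numbers below `n` -/
def allN : ℕ → (ℕ → Bool) → Bool
  | 0, _ => true
  | k + 1, p => and (p k) (allN k p)

theorem allN_spec {n : ℕ} {p : ℕ → Bool} (h : allN n p = true) : ∀ i < n, p i = true := by
  induction n with
  | zero => intro i hi; omega
  | succ n ih =>
    intro i hi
    have h1 : and (p n) (allN n p) = true := h
    rw [Bool.and_eq_true] at h1
    rcases Nat.lt_succ_iff_lt_or_eq.1 hi with h2 | h2
    · exact ih h1.2 i h2
    · rw [h2]; exact h1.1

/-- number of numbers below `n` with the property -/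
def cntN : ℕ → (ℕ → Bool) → ℕ
  | 0, _ => 0
  | k + 1, p => cond (p k) (Nat.succ (cntN k p)) (cntN k p)

theorem cntN_eq (n : ℕ) (p : ℕ → Bool) : cntN n p = (Finset.univ.filter fun i : Fin n => p i = true).card := by
  induction n with
  | zero => simp [cntN]
  | succ n ih =>
    rw [Finset.card_filter, Fin.sum_univ_castSucc, ← Finset.card_filter]
    simp only [Fin.val_castSucc, Fin.val_last]
    have h1 : cntN (n + 1) p = cond (p n) (Nat.succ (cntN n p)) (cntN n p) := rfl
    rw [h1, ih]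
    by_cases h : p n = true
    · rw [if_pos h, h]; rfl
    · rw [if_neg h, add_zero]
      rw [Bool.not_eq_true] at h
      rw [h]; rfl

variable {σ τ : Pm} {S T X Y Z : ℕ}

theorem Tab.ext (h1 : Tab σ T) (h2 : Tab τ T) : σ = τ := by
  ext i
  rw [h1 i, h2 i]

/-- the table `Z` is the product of the tables `X` and `Y` -/
def prodB (X Y Z : ℕ) : Bool := allN 165 fun i => Nat.beq (gt Z i) (gt X (gt Y i))

theorem Tab.mul (h1 : Tab σ X) (h2 : Tab τ Y) (h : prodB X Y Z = true) : Tab (σ * τ) Z := by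
  intro i
  have h3 := Nat.eq_of_beq_eq_true (allN_spec h i i.2)
  rw [h3, ← h2 i, Equiv.Perm.mul_apply, h1 (τ i)]

/-- equality of tables -/
def eqB (X Y : ℕ) : Bool := allN 165 fun i => Nat.beq (gt Y i) (gt X i)

theorem Tab.congr (h1 : Tab σ X) (h : eqB X Y = true) : Tab σ Y := by
  intro i
  have h3 := Nat.eq_of_beq_eq_true (allN_spec h i i.2)
  rw [h3, h1 i]

/-! ### Words -/

/-- the value of a word -/
def wd (g : ℕ → Pm) (w : List ℕ) : Pm := w.foldr (fun k x => g k * x) 1

/-- the image of a point under a word -/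
def ev (G : ℕ → ℕ) (w : List ℕ) (i : ℕ) : ℕ := w.foldr (fun k x => gt (G k) x) i

variable {g : ℕ → Pm} {G : ℕ → ℕ}

theorem wd_cons (k : ℕ) (w : List ℕ) : wd g (k :: w) = g k * wd g w := rfl

theorem ev_cons (k : ℕ) (w : List ℕ) (i : ℕ) : ev G (k :: w) i = gt (G k) (ev G w i) := rfl

theorem wd_apply (hg : ∀ k, Tab (g k) (G k)) (w : List ℕ) (i : Fin 165) : ((wd g w i : Fin 165) : ℕ) = ev G w i := by
  induction w with
  | nil => rfl
  | cons k w ih => rw [wd_cons, ev_cons, ← ih, Equiv.Perm.mul_apply, hg k (wd g w i)]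

theorem wd_append (u w : List ℕ) : wd g (u ++ w) = wd g u * wd g w := by
  induction u with
  | nil => exact (one_mul _).symm
  | cons k u ih => rw [List.cons_append, wd_cons, wd_cons, ih, mul_assoc]

theorem wd_mem {Γ : Subgroup Pm} (hg : ∀ k, g k ∈ Γ) (w : List ℕ) : wd g w ∈ Γ := by
  induction w with
  | nil => exact one_mem _
  | cons k w ih => exact mul_mem (hg k) ih

/-- the word `w` has the table `X` -/
def wordB (G : ℕ → ℕ) (w : List ℕ) (X : ℕ) : Bool := allN 165 fun i => Nat.beq (gt X i) (ev G w i)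

theorem Tab.word (hg : ∀ k, Tab (g k) (G k)) {w : List ℕ} (h : wordB G w X = true) : Tab (wd g w) X := by
  intro i
  have h3 := Nat.eq_of_beq_eq_true (allN_spec h i i.2)
  rw [h3, wd_apply hg]

/-! ### Counting -/

section count

variable {P : Type*} [Group P] [Finite P]

/-- coset representatives -/
theorem card_mul_le {H K : Subgroup P} {ι : Type*} [Fintype ι] (w : ι → P) (hw : ∀ i, w i ∈ H) (hK : K ≤ H)
    (hinj : ∀ i j, (w i)⁻¹ * w j ∈ K → i = j) : Fintype.card ι * Nat.card K ≤ Nat.card H := by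
  rw [← Nat.card_eq_fintype_card, ← Nat.card_prod]
  refine Nat.card_le_card_of_injective (fun x : ι × K => (⟨w x.1 * x.2, mul_mem (hw _) (hK x.2.2)⟩ : H)) ?_
  rintro ⟨i, k⟩ ⟨j, l⟩ h
  have h1 : w i * (k : P) = w j * (l : P) := congrArg Subtype.val h
  have h2 : (w i)⁻¹ * w j = (k : P) * (l : P)⁻¹ := by
    rw [eq_mul_inv_iff_mul_eq, mul_assoc, ← h1, inv_mul_cancel_left]
  have h3 : i = j := hinj i j (by rw [h2]; exact mul_mem k.2 (inv_mem l.2))
  subst h3
  have h4 : k = l := Subtype.ext (mul_left_cancel h1)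
  rw [h4]

/-- the stabilizer of a point has index at most the number of its possible images -/
theorem card_le_mul {α : Type*} [MulAction P α] (H : Subgroup P) (a : α) (S : Finset α)
    (h : ∀ x ∈ H, x • a ∈ S) : Nat.card H ≤ S.card * Nat.card ↥(H ⊓ MulAction.stabilizer P a) := by
  classical
  -- a representative for every reached point
  have key : ∀ b : S, ∃ y : P, (∃ x ∈ H, x • a = b.1) → (y ∈ H ∧ y • a = b.1) := by
    intro b
    by_cases hb : ∃ x ∈ H, x • a = b.1
    · obtain ⟨x, hx, hxa⟩ := hb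
      exact ⟨x, fun _ => ⟨hx, hxa⟩⟩
    · exact ⟨1, fun h1 => absurd h1 hb⟩
  choose y hy using key
  have e : S.card = Nat.card S := by rw [Nat.card_eq_fintype_card, Fintype.card_coe]
  rw [e, ← Nat.card_prod]
  have hx : ∀ x : H, y ⟨(x : P) • a, h x x.2⟩ ∈ H ∧ y ⟨(x : P) • a, h x x.2⟩ • a = (x : P) • a := fun x =>
    hy ⟨(x : P) • a, h x x.2⟩ ⟨x, x.2, rfl⟩
  refine Nat.card_le_card_of_injective (fun x : H => ((⟨(x : P) • a, h x x.2⟩ : S),
    (⟨(y ⟨(x : P) • a, h x x.2⟩)⁻¹ * x, ⟨H.mul_mem (H.inv_mem (hx x).1) x.2, ?_⟩⟩ :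
      ↥(H ⊓ MulAction.stabilizer P a)))) ?_
  · show ((y ⟨(x : P) • a, h x x.2⟩)⁻¹ * (x : P)) ∈ MulAction.stabilizer P a
    rw [MulAction.mem_stabilizer_iff, mul_smul, inv_smul_eq_iff]
    exact (hx x).2.symm
  · intro x x' hxx
    have h1 := congrArg Prod.fst hxx
    have h2 := congrArg Prod.snd hxx
    have h3 : (y ⟨(x : P) • a, h x x.2⟩)⁻¹ * (x : P) = (y ⟨(x' : P) • a, h x' x'.2⟩)⁻¹ * (x' : P) :=
      congrArg Subtype.val h2
    have h4 : (⟨(x : P) • a, h x x.2⟩ : S) = ⟨(x' : P) • a, h x' x'.2⟩ := h1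
    rw [h4] at h3
    exact Subtype.ext (mul_left_cancel h3)

end count

end Cfsg.Agent.H933.R7
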